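-- Team project LSF (S5286, helper67), package [HOM] (helper10):
-- a conjugation of `Perm S` mapping `lam P` into `lam S` is `lam ∘ ψ` for a homomorphism `ψ`.
import Mathlib
import Cfsg.Agent.Lib.Helper67.LSF.Defs

set_option autoImplicit false

namespace Cfsg.Agent.Lib.Helper10.LSF

open Cfsg Cfsg.Agent.Lib.Helper67.LSF

universe u

/-- [HOM] -/
theorem pkgHom : PkgHom.{u} := by
  intro Ω _ S q P hP h
  choose y hy using h
  have linj : ∀ s s' : S, lam S s = lam S s' → s = s' := by
    intro s s' hs
    have h1 := congrArg (fun f : Equiv.Perm S => f 1) hs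
    simpa [lam_apply] using h1
  have h1 : y 1 = 1 := by
    apply linj
    rw [← hy 1]
    have e : (⟨((1 : P) : Ω), hP (1 : P).2⟩ : S) = 1 := rfl
    rw [e, map_one, mul_one, mul_inv_cancel]
  have hm : ∀ a b : P, y (a * b) = y a * y b := by
    intro a b
    apply linj
    rw [map_mul, ← hy a, ← hy b, ← hy (a * b)]
    have e : (⟨((a * b : P) : Ω), hP (a * b).2⟩ : S) = ⟨a, hP a.2⟩ * ⟨b, hP b.2⟩ := rfl
    rw [e, map_mul]
    group
  refine ⟨{ toFun := fun x => (y x : Ω)
            map_one' := by rw [h1]; rfl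
            map_mul' := fun a b => by rw [hm]; rfl }, fun x => (y x).2, fun x => ?_⟩
  exact (hy x).symm

end Cfsg.Agent.Lib.Helper10.LSF
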